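import Cfsg.Agent.H168.FRHex.Mono
import Cfsg.Agent.H597.Base

/-!
# Fully ramified sign characters (team SR, S4970, P3; helper893)

`Hei N P A Z lam` : `Z ≤ A ∩ N` central in `G`, `P = A N`, `lam` a sign character of `A`, Mackey in `N`,
`|A ∩ N|² = |N| |Z|`. Then `θ = Ind_{A ∩ N}^N lam` is the only irreducible character of `N` over `lam | Z`, it has
indicator one and it extends to the real irreducible character `η = Ind_A^P lam` of `P`.
-/

set_option autoImplicit false
set_option linter.unusedSectionVars false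

universe u

namespace Cfsg.Agent.H893.FR

open Cfsg Cfsg.Agent.H955.FS
open Cfsg.Agent.Characters.Core
open scoped ComplexConjugate

structure Hei {G : Type u} [Group G] (N P A Z : Subgroup G) (lam : G → ℂ) : Prop where
  NP : N ≤ P
  AP : A ≤ P
  ZA : Z ≤ A
  ZN : Z ≤ N
  PN : ∀ p ∈ P, ∃ a ∈ A, ∃ n ∈ N, p = a * n
  cen : ∀ z ∈ Z, ∀ g, g * z = z * g
  mul : ∀ a ∈ A, ∀ b ∈ A, lam (a * b) = lam a * lam b
  pm : ∀ a ∈ A, lam a = 1 ∨ lam a = -1
  mac : ∀ n ∈ N, n ∉ A → ∃ a ∈ A, a ∈ N ∧ n * a * n⁻¹ ∈ A ∧ lam (n * a * n⁻¹) ≠ lam a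
  card : Nat.card ↥(A ⊓ N) ^ 2 = Nat.card N * Nat.card Z

section One

variable {G : Type u} [Group G] [Finite G]

/-- monomial characters: irreducibility, reality, value at central elements -/
theorem mackey (A : Subgroup G) (lam : A → ℂ)
    (hlam : ∀ a b : A, lam (a * b) = lam a * lam b) (hpm : ∀ a, lam a = 1 ∨ lam a = -1)
    (hM : ∀ g : G, g ∉ A → ∃ (a : A) (h : g * a * g⁻¹ ∈ A), lam ⟨g * a * g⁻¹, h⟩ ≠ lam a) :
    ∃ χ : G → ℂ, IsIrrCharacter G χ ∧ χ 1 = A.index ∧ fsi χ = 1 ∧ (∀ g, (χ g).im = 0) ∧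
      (∀ z (hz : z ∈ A), (∀ g, g * z = z * g) → χ z = lam ⟨z, hz⟩ * χ 1) := by
  classical
  have := Fintype.ofFinite G
  have := Fintype.ofFinite A
  have hll : ∀ a, lam a * lam a = 1 := by
    intro a
    rcases hpm a with h | h <;> rw [h] <;> norm_num
  have hone : lam 1 = 1 := by
    have h := hlam 1 1
    rw [mul_one] at h
    rcases hpm 1 with h1 | h1
    · exact h1
    · rw [h1] at h; norm_num at h
  have hconj : ∀ a, conj (lam a) = lam a := by
    intro a
    rcases hpm a with h | h <;> rw [h] <;> simp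
  let f : A →* ℂˣ := MonoidHom.mk' (fun a => ⟨lam a, lam a, hll a, hll a⟩) fun a b =>
    Units.ext (hlam a b)
  have hf : ∀ a, ((f a : ℂˣ) : ℂ) = lam a := fun a => rfl
  have hirr : IsIrrCharacter G (indFun A lam) := by
    refine Cfsg.Agent.CharactersDeep.MackeyLinear.isIrrCharacter_indFun A f fun x hx => ?_
    obtain ⟨a, ha, hne⟩ := hM x⁻¹ (fun h => hx ((inv_mem_iff).1 h))
    have e : x⁻¹ * (a : G) * x⁻¹⁻¹ = x⁻¹ * a * x := by rw [inv_inv]
    refine ⟨a, by rw [← e]; exact ha, fun h => hne ?_⟩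
    have h1 := congrArg (fun z : ℂˣ => (z : ℂ)) h
    simp only [hf] at h1
    rw [h1]
    congr 1
    exact Subtype.ext e
  have hlamI : IsIrrCharacter A lam := isIrr_sign lam hlam hpm
  refine ⟨indFun A lam, hirr, ?_, ?_, ?_, ?_⟩
  · rw [CharactersDeep.NormalInd.indFun_one, hone, mul_one]
  · refine Cfsg.Agent.H168.FRHex.mono A lam hlam hpm hM hirr ?_
    have h1 := CharactersDeep.NormalInd.classInner_indFun A lam (indFun A lam) (isIrr_isClassFunction hirr)
    rw [classInner_irr_self hirr, classInner_def] at h1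
    rw [finsum_eq_sum_of_fintype]
    intro h0
    have h2 : ∑ a : A, lam a * conj (indFun A lam (a : G)) = conj (∑ a : A, indFun A lam a * lam a) := by
      rw [map_sum]
      refine Finset.sum_congr rfl fun a _ => ?_
      rw [map_mul, hconj, mul_comm]
    rw [h2, h0, map_zero, mul_zero] at h1
    exact one_ne_zero h1
  · intro g
    rw [← Complex.conj_eq_iff_im]
    have h2 : (fun a => conj (lam a)) = lam := funext hconj
    have h3 := indFun_conj A lam
    rw [h2] at h3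
    exact (congrFun h3 g).symm
  · intro z hz hc
    have e0 : ∀ x : G, extendByZero A lam (x⁻¹ * z * x) = lam ⟨z, hz⟩ * extendByZero A lam (x⁻¹ * 1 * x) := by
      intro x
      have e1 : x⁻¹ * z * x = z := by
        rw [hc x⁻¹, mul_assoc, inv_mul_cancel, mul_one]
      have e2 : x⁻¹ * 1 * x = 1 := by rw [mul_one, inv_mul_cancel]
      rw [e1, e2, extendByZero_of_mem A lam hz, extendByZero_of_mem A lam (one_mem A)]
      have e3 : (⟨1, one_mem A⟩ : A) = 1 := rfl
      rw [e3, hone, mul_one]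
    rw [indFun_apply, indFun_apply, Finset.sum_congr rfl fun x _ => e0 x, ← Finset.mul_sum]
    ring

/-- a character vanishing off `Z` -/
theorem vanish [Fintype G] (Z : Subgroup G) {χ : G → ℂ} (hχ : IsIrrCharacter G χ) (mu : G → ℂ)
    (hmu : ∀ z ∈ Z, mu z = 1 ∨ mu z = -1) (hz : ∀ z ∈ Z, χ z = mu z * χ 1) {d : ℕ} (hd : χ 1 = d)
    (hcard : d ^ 2 * Nat.card Z = Nat.card G) : ∀ g, g ∉ Z → χ g = 0 := by
  classical
  have h1 := classInner_irr_self hχ
  rw [classInner_def] at h1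
  have hc0 : (Nat.card G : ℂ) ≠ 0 := card_ne_zero_complex
  have h2 : ∑ g : G, χ g * conj (χ g) = Nat.card G := by
    rw [inv_mul_eq_iff_eq_mul₀ hc0, mul_one] at h1
    exact h1
  have h3 : ∑ g : G, Complex.normSq (χ g) = Nat.card G := by
    have h4 : ((∑ g : G, Complex.normSq (χ g) : ℝ) : ℂ) = ((Nat.card G : ℝ) : ℂ) := by
      push_cast
      rw [← h2]
      exact Finset.sum_congr rfl fun g _ => (Complex.mul_conj _).symm
    exact_mod_cast h4
  have h5 : ∑ g ∈ Finset.univ.filter (fun g => g ∈ Z), Complex.normSq (χ g) = Nat.card G := by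
    have h6 : ∀ g ∈ Finset.univ.filter (fun g => g ∈ Z), Complex.normSq (χ g) = (d : ℝ) ^ 2 := by
      intro g hg
      have hg' := (Finset.mem_filter.1 hg).2
      rw [hz g hg', hd, map_mul]
      rcases hmu g hg' with h | h
      · rw [h]; simp [Complex.normSq_natCast]; ring
      · rw [h]; simp [Complex.normSq_natCast]; ring
    rw [Finset.sum_congr rfl h6, Finset.sum_const, nsmul_eq_mul]
    have h7 : (Finset.univ.filter (fun g => g ∈ Z)).card = Nat.card Z := by
      rw [Nat.card_eq_fintype_card, Fintype.card_subtype]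
    rw [h7, ← hcard]
    push_cast
    ring
  have h8 : ∑ g ∈ Finset.univ.filter (fun g => g ∉ Z), Complex.normSq (χ g) = 0 := by
    have h9 := Finset.sum_filter_add_sum_filter_not Finset.univ (fun g => g ∈ Z) (fun g => Complex.normSq (χ g))
    rw [h5, h3] at h9
    linarith
  intro g hg
  have h10 := (Finset.sum_eq_zero_iff_of_nonneg (fun g _ => Complex.normSq_nonneg _)).1 h8 g
    (Finset.mem_filter.2 ⟨Finset.mem_univ _, hg⟩)
  exact Complex.normSq_eq_zero.1 h10

/-- inner product with a character vanishing off `Z` -/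
theorem inner_ne [Fintype G] (Z : Subgroup G) {χ ψ : G → ℂ} (mu : G → ℂ)
    (hmu : ∀ z ∈ Z, mu z = 1 ∨ mu z = -1) (hz : ∀ z ∈ Z, χ z = mu z * χ 1) (hz' : ∀ z ∈ Z, ψ z = mu z * ψ 1)
    (h0 : ∀ g, g ∉ Z → χ g = 0) (h1 : χ 1 ≠ 0) (h1' : ψ 1 ≠ 0) : classInner ψ χ ≠ 0 := by
  classical
  rw [classInner_def]
  refine mul_ne_zero (inv_ne_zero card_ne_zero_complex) ?_
  have h2 : ∑ g : G, ψ g * conj (χ g) = ∑ g ∈ Finset.univ.filter (fun g => g ∈ Z), ψ 1 * conj (χ 1) := by
    rw [← Finset.sum_filter_add_sum_filter_not Finset.univ (fun g => g ∈ Z) (fun g => ψ g * conj (χ g)),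
      Finset.sum_eq_zero (s := Finset.univ.filter (fun g => g ∉ Z)), add_zero]
    · refine Finset.sum_congr rfl fun g hg => ?_
      have hg' := (Finset.mem_filter.1 hg).2
      rw [hz g hg', hz' g hg', map_mul]
      rcases hmu g hg' with h | h
      · rw [h]; simp
      · rw [h]; simp
    · intro g hg
      rw [h0 g (Finset.mem_filter.1 hg).2, map_zero, mul_zero]
  rw [h2, Finset.sum_const, nsmul_eq_mul]
  refine mul_ne_zero ?_ (mul_ne_zero h1' ?_)
  · have h7 : (Finset.univ.filter (fun g => g ∈ Z)).card = Nat.card Z := by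
      rw [Nat.card_eq_fintype_card, Fintype.card_subtype]
    rw [h7]
    exact_mod_cast (Nat.card_pos (α := Z)).ne'
  · rw [Ne, map_eq_zero]
    exact h1

end One

section Main

variable {G : Type u} [Group G] [Finite G] {N P A Z : Subgroup G} {lam : G → ℂ}

theorem Hei.card_P (h : Hei N P A Z lam) [N.Normal] : Nat.card P * Nat.card ↥(A ⊓ N) = Nat.card A * Nat.card N := by
  have h1 : P = A ⊔ N := by
    refine le_antisymm (fun p hp => ?_) (sup_le h.AP h.NP)
    obtain ⟨a, ha, n, hn, rfl⟩ := h.PN p hp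
    exact mul_mem (Subgroup.mem_sup_left ha) (Subgroup.mem_sup_right hn)
  have h2 : N.relIndex P = N.relIndex A := by
    rw [h1]
    exact Subgroup.relIndex_sup_right _ _
  have h3 : Nat.card P = N.relIndex P * Nat.card N := by
    have h5 := Subgroup.relIndex_mul_relIndex ⊥ N P bot_le h.NP
    rw [Subgroup.relIndex_bot_left, Subgroup.relIndex_bot_left] at h5
    rw [mul_comm]
    exact h5.symm
  have h4 : Nat.card A = N.relIndex A * Nat.card ↥(A ⊓ N) := by
    have h5 := Subgroup.relIndex_mul_relIndex ⊥ (A ⊓ N) A bot_le inf_le_left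
    rw [Subgroup.inf_relIndex_left, Subgroup.relIndex_bot_left, Subgroup.relIndex_bot_left] at h5
    rw [mul_comm]
    exact h5.symm
  rw [h3, h4, h2]
  ring

/-- **The fully ramified character.** -/
theorem Hei.exists_theta (h : Hei N P A Z lam) [hN : N.Normal] : ∃ (θ : N → ℂ) (η : P → ℂ),
    IsIrrCharacter N θ ∧ fsi θ = 1 ∧ IsIrrCharacter P η ∧ (∀ p, (η p).im = 0) ∧
    (∀ n : N, η ⟨n, h.NP n.2⟩ = θ n) ∧
    (∀ ψ : N → ℂ, IsIrrCharacter N ψ → (∀ z (hz : z ∈ Z), ψ ⟨z, h.ZN hz⟩ = lam z * ψ 1) → ψ = θ) ∧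
    (∀ (g : G) (n : N), θ ⟨g * n * g⁻¹, hN.conj_mem (n : G) n.2 g⟩ = θ n) ∧
    (∀ (_ : Fintype N) (φ : N → ℂ), φ 1 ≠ 0 → (∀ z (hz : z ∈ Z), φ ⟨z, h.ZN hz⟩ = lam z * φ 1) →
      classInner φ θ ≠ 0) := by
  classical
  have := Fintype.ofFinite G
  have := Fintype.ofFinite N
  have := Fintype.ofFinite P
  -- `θ`
  obtain ⟨θ, hθ, hθ1, hθf, -, hθz⟩ := mackey (A.subgroupOf N) (fun a => lam (a : N))
    (fun a b => h.mul _ (Subgroup.mem_subgroupOf.1 a.2) _ (Subgroup.mem_subgroupOf.1 b.2))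
    (fun a => h.pm _ (Subgroup.mem_subgroupOf.1 a.2)) (by
      intro g hg
      obtain ⟨a, ha, haN, hga, hne⟩ := h.mac g g.2 (fun hh => hg (Subgroup.mem_subgroupOf.2 hh))
      exact ⟨⟨⟨a, haN⟩, Subgroup.mem_subgroupOf.2 ha⟩, Subgroup.mem_subgroupOf.2 hga, hne⟩)
  obtain ⟨η, hη, hη1, -, hηr, hηz⟩ := mackey (A.subgroupOf P) (fun a => lam (a : P))
    (fun a b => h.mul _ (Subgroup.mem_subgroupOf.1 a.2) _ (Subgroup.mem_subgroupOf.1 b.2))
    (fun a => h.pm _ (Subgroup.mem_subgroupOf.1 a.2)) (by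
      intro g hg
      obtain ⟨b, hb, n, hn, e⟩ := h.PN g g.2
      have hnA : n ∉ A := fun hnA => hg (Subgroup.mem_subgroupOf.2 (by rw [e]; exact mul_mem hb hnA))
      obtain ⟨a, ha, haN, hna, hne⟩ := h.mac n hn hnA
      have e1 : (g : G) * a * (g : G)⁻¹ = b * (n * a * n⁻¹) * b⁻¹ := by rw [e]; group
      refine ⟨⟨⟨a, h.AP ha⟩, Subgroup.mem_subgroupOf.2 ha⟩, Subgroup.mem_subgroupOf.2 ?_, ?_⟩
      · show (g : G) * a * (g : G)⁻¹ ∈ A
        rw [e1]
        exact mul_mem (mul_mem hb hna) (inv_mem hb)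
      · show lam ((g : G) * a * (g : G)⁻¹) ≠ lam a
        rw [e1, h.mul _ (mul_mem hb hna) _ (inv_mem hb), h.mul _ hb _ hna]
        have h2 : lam b * lam b⁻¹ = 1 := by
          rw [← h.mul _ hb _ (inv_mem hb), mul_inv_cancel]
          have h3 := h.mul 1 (one_mem _) 1 (one_mem _)
          rw [mul_one] at h3
          rcases h.pm 1 (one_mem _) with h4 | h4
          · exact h4
          · rw [h4] at h3; norm_num at h3
        have h3 : lam b * lam (n * a * n⁻¹) * lam b⁻¹ = lam (n * a * n⁻¹) := by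
          calc lam b * lam (n * a * n⁻¹) * lam b⁻¹ = (lam b * lam b⁻¹) * lam (n * a * n⁻¹) := by ring
            _ = _ := by rw [h2, one_mul]
        rw [h3]
        exact hne)
  -- degrees
  have hA0 : Nat.card ↥(A.subgroupOf N) = Nat.card ↥(A ⊓ N) := by
    rw [← Subgroup.inf_subgroupOf_right]
    exact Nat.card_congr (Subgroup.subgroupOfEquivOfLe inf_le_right).toEquiv
  have hA1 : Nat.card ↥(A.subgroupOf P) = Nat.card A := Nat.card_congr (Subgroup.subgroupOfEquivOfLe h.AP).toEquiv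
  have i0 := Subgroup.card_mul_index (A.subgroupOf N)
  have i1 := Subgroup.card_mul_index (A.subgroupOf P)
  rw [hA0] at i0
  rw [hA1] at i1
  have pA0 : 0 < Nat.card ↥(A ⊓ N) := Nat.card_pos
  have pA : 0 < Nat.card A := Nat.card_pos
  have pN : 0 < Nat.card N := Nat.card_pos
  have hdeg : (A.subgroupOf P).index = (A.subgroupOf N).index := by
    have h1 := h.card_P
    rw [← i1, ← i0] at h1
    have h2 : Nat.card A * Nat.card ↥(A ⊓ N) * (A.subgroupOf P).index =
        Nat.card A * Nat.card ↥(A ⊓ N) * (A.subgroupOf N).index := by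
      rw [← mul_assoc] at h1
      linarith
    exact Nat.eq_of_mul_eq_mul_left (Nat.mul_pos pA pA0) h2
  -- the centre
  let Z' : Subgroup N := Z.subgroupOf N
  have hZ' : Nat.card Z' = Nat.card Z := Nat.card_congr (Subgroup.subgroupOfEquivOfLe h.ZN).toEquiv
  have hcard : (A.subgroupOf N).index ^ 2 * Nat.card Z' = Nat.card N := by
    rw [hZ']
    have h1 := h.card
    have h2 : Nat.card ↥(A ⊓ N) ^ 2 * ((A.subgroupOf N).index ^ 2 * Nat.card Z) =
        Nat.card ↥(A ⊓ N) ^ 2 * Nat.card N := by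
      calc Nat.card ↥(A ⊓ N) ^ 2 * ((A.subgroupOf N).index ^ 2 * Nat.card Z) =
          (Nat.card ↥(A ⊓ N) * (A.subgroupOf N).index) ^ 2 * Nat.card Z := by ring
        _ = Nat.card N ^ 2 * Nat.card Z := by rw [i0]
        _ = (Nat.card N * Nat.card Z) * Nat.card N := by ring
        _ = _ := by rw [h1]
    exact Nat.eq_of_mul_eq_mul_left (pow_pos pA0 2) h2
  have hpmZ : ∀ z ∈ Z', lam (z : N) = 1 ∨ lam (z : N) = -1 := fun z hz =>
    h.pm _ (h.ZA (Subgroup.mem_subgroupOf.1 hz))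
  have hθz' : ∀ z ∈ Z', θ z = lam (z : N) * θ 1 := by
    intro z hz
    have hzZ := Subgroup.mem_subgroupOf.1 hz
    exact hθz z (Subgroup.mem_subgroupOf.2 (h.ZA hzZ)) (fun g => Subtype.ext (h.cen _ hzZ _))
  have hvan := vanish Z' hθ (fun n => lam (n : G)) hpmZ hθz' hθ1 hcard
  have huniq : ∀ ψ : N → ℂ, IsIrrCharacter N ψ → (∀ z (hz : z ∈ Z), ψ ⟨z, h.ZN hz⟩ = lam z * ψ 1) → ψ = θ := by
    intro ψ hψ hψz
    by_contra hne
    exact inner_ne Z' (χ := θ) (ψ := ψ) (fun n => lam (n : G)) hpmZ hθz'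
      (fun z hz => hψz z (Subgroup.mem_subgroupOf.1 hz)) hvan (isIrr_apply_one_ne_zero hθ)
      (isIrr_apply_one_ne_zero hψ) (classInner_irr_ne hψ hθ hne)
  refine ⟨θ, η, hθ, hθf, hη, hηr, ?_, huniq, ?_, ?_⟩
  · -- the restriction
    let ι : N →* P := Subgroup.inclusion h.NP
    have hres : IsCharacter N (fun n => η (ι n)) := isCharacter_comp ι (isIrr_isCharacter hη)
    have h1 : (fun n => η (ι n)) = θ := by
      refine Cfsg.Agent.H597.Base.eq_of_degree_eq hres hθ ?_ ?_
      · refine inner_ne Z' (χ := θ) (ψ := fun n => η (ι n)) (fun n => lam (n : G)) hpmZ hθz' ?_ hvan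
          (isIrr_apply_one_ne_zero hθ) ?_
        · intro z hz
          have hzZ := Subgroup.mem_subgroupOf.1 hz
          show η (ι z) = lam (z : N) * η (ι 1)
          rw [map_one]
          exact hηz (ι z) (Subgroup.mem_subgroupOf.2 (h.ZA hzZ)) (fun g => Subtype.ext (h.cen _ hzZ _))
        · show η (ι 1) ≠ 0
          rw [map_one]
          exact isIrr_apply_one_ne_zero hη
      · show η (ι 1) = θ 1
        rw [map_one, hη1, hθ1, hdeg]
    intro n
    exact congrFun h1 n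
  · -- invariance
    intro g n
    let c : N ≃* N := MulAut.conjNormal g
    have hc : ∀ n, c n = ⟨g * n * g⁻¹, hN.conj_mem (n : G) n.2 g⟩ := fun n => by
      apply Subtype.ext
      simp [c]
    have h1 : IsIrrCharacter N (fun n => θ (c n)) := isIrr_comp c.toMonoidHom c.surjective hθ
    have h2 : (fun n => θ (c n)) = θ := by
      refine huniq _ h1 fun z hz => ?_
      show θ (c ⟨z, h.ZN hz⟩) = lam z * θ (c 1)
      rw [map_one]
      have h3 : c ⟨z, h.ZN hz⟩ = ⟨z, h.ZN hz⟩ := by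
        rw [hc]
        apply Subtype.ext
        show g * z * g⁻¹ = z
        rw [h.cen z hz g, mul_inv_cancel_right]
      rw [h3]
      exact hθz' ⟨z, h.ZN hz⟩ (Subgroup.mem_subgroupOf.2 hz)
    rw [← hc]
    exact congrFun h2 n
  · intro inst φ hφ1 hφz
    have h1 := inner_ne Z' (χ := θ) (ψ := φ) (fun n => lam (n : G)) hpmZ hθz'
      (fun z hz => hφz z (Subgroup.mem_subgroupOf.1 hz)) hvan (isIrr_apply_one_ne_zero hθ) hφ1
    convert h1

end Main

end Cfsg.Agent.H893.FR
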