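import Cfsg.Agent.H893.FR.Hei
import Cfsg.Agent.H705.Indicator
import Cfsg.Agent.Blocks.Deflate
import Cfsg.Agent.S0856
import Cfsg.Agent.S0188

/-!
# Indicators of products; characters over an extendible real character (team SR, S4970, P3; helper893)
-/

set_option autoImplicit false
set_option linter.unusedSectionVars false

universe u

namespace Cfsg.Agent.H893.FR

open Cfsg Cfsg.Agent.H955.FS
open Cfsg.Agent.Characters.Core
open scoped ComplexConjugate

variable {G : Type u} [Group G] [Finite G]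

/-- **The indicator is multiplicative** on real irreducible characters with irreducible product. -/
theorem fsi_mul {α β : G → ℂ} (hα : IsIrrCharacter G α) (hβ : IsIrrCharacter G β)
    (hαβ : IsIrrCharacter G (α * β)) (hαr : ∀ g, (α g).im = 0) (hβr : ∀ g, (β g).im = 0) :
    fsi α * fsi β * fsi (α * β) = 1 := by
  classical
  have := Fintype.ofFinite G
  have hr : ∀ g, conj ((α * β) g) = (α * β) g := by
    intro g
    show conj (α g * β g) = α g * β g
    rw [map_mul, Complex.conj_eq_iff_im.2 (hαr g), Complex.conj_eq_iff_im.2 (hβr g)]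
  have h1 : IsIrrCharacter (G × G) (fun x => α x.1 * β x.2) := (S0188.result _).2 ⟨α, β, hα, hβ, rfl⟩
  have h2 : IsIrrCharacter ((G × G) × G) (fun x => (α x.1.1 * β x.1.2) * (α * β) x.2) :=
    (S0188.result _).2 ⟨_, _, h1, hαβ, rfl⟩
  have h3 := Cfsg.Agent.H705.Indicator.indicator_restrict
    (f := (MonoidHom.prod (MonoidHom.prod (MonoidHom.id G) (MonoidHom.id G)) (MonoidHom.id G)))
    h2 (by
      rintro ⟨⟨a, b⟩, c⟩
      rw [← Complex.conj_eq_iff_im]
      show conj ((α a * β b) * (α * β) c) = (α a * β b) * (α * β) c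
      rw [map_mul, hr, map_mul, Complex.conj_eq_iff_im.2 (hαr a), Complex.conj_eq_iff_im.2 (hβr b)])
    (ψ := fun _ => 1) isIrr_one (by
      rw [Finset.sum_const, nsmul_eq_mul, mul_one, Finset.card_univ, ← Nat.card_eq_fintype_card]
      exact inv_mul_cancel₀ (by exact_mod_cast Nat.card_pos.ne')) (by
      have h4 := classInner_irr_self hαβ
      rw [classInner_def] at h4 ⊢
      refine Eq.trans ?_ h4
      congr 1
      refine Finset.sum_congr rfl fun g _ => ?_
      show (α g * β g) * (α g * β g) * conj 1 = (α * β) g * conj ((α * β) g)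
      rw [hr, map_one, mul_one]
      rfl)
  rw [← fsi_outer α β, ← fsi_outer (fun x : G × G => α x.1 * β x.2) (α * β), fsi_eq_sum]
  exact h3

/-- **Characters over an extendible real character.** -/
theorem ext_good (N : Subgroup G) [hN : N.Normal] {θ : N → ℂ} (hθ : IsIrrCharacter N θ)
    {χ₀ : G → ℂ} (hχ₀ : IsIrrCharacter G χ₀) (hr : ∀ g, (χ₀ g).im = 0) (hf : fsi χ₀ = 1)
    (hext : ∀ n : N, χ₀ n = θ n) {w : Prop} (hG : FSGood w (G ⧸ N)) [Fintype N] {χ : G → ℂ}
    (hχ : IsIrrCharacter G χ) (hover : classInner (fun n : N => χ n) θ ≠ 0) : fsi χ = 1 ∨ (w ∧ fsi χ = 0) := by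
  classical
  have := Fintype.ofFinite G
  have e0 : (fun n : N => χ₀ n) = θ := funext hext
  have hinv : ∀ (g : G) (n : N), θ ⟨g * n * g⁻¹, hN.conj_mem (n : G) n.2 g⟩ = θ n := by
    intro g n
    rw [← hext, ← hext]
    exact isIrr_isClassFunction hχ₀ n g
  have hone : ((fun _ => 1) * θ : N → ℂ) = θ := by
    funext k; simp
  have key := S0856.result N (fun _ => 1) θ isIrr_one hθ (fun g n => rfl) hinv (by rw [hone]; exact hθ) χ₀ hχ₀ hext
  -- membership on the side of the quotient
  have hmem : ∀ β : G → ℂ, IsIrrCharacter G β → (∀ n : N, β n = β 1) →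
      β ∈ {β : G → ℂ | IsIrrCharacter G β ∧ classInner (indFun N (fun _ => 1)) β ≠ 0} := by
    intro β hβ hβN
    refine ⟨hβ, ?_⟩
    rw [Cfsg.Agent.CharactersDeep.NormalInd.classInner_indFun N (fun _ => 1) _ (isIrr_isClassFunction hβ)]
    have h1 : (fun k : N => β (k : G)) = β 1 • (fun _ => 1 : N → ℂ) := by
      funext k
      simp [hβN]
    rw [h1, classInner_smul_right]
    have h2 : classInner (fun _ => 1 : N → ℂ) (fun _ => 1 : N → ℂ) = 1 := classInner_irr_self isIrr_one
    rw [h2, mul_one, Ne, map_eq_zero]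
    exact isIrr_apply_one_ne_zero hβ
  -- `χ = β χ₀`
  obtain ⟨β, ⟨hβ, hβ1⟩, hβχ⟩ := key.surjOn (show χ ∈ _ from ⟨hχ, by
    rw [hone, Cfsg.Agent.CharactersDeep.NormalInd.classInner_indFun N θ _ (isIrr_isClassFunction hχ)]
    intro h
    apply hover
    have h5 := classInner_conj_symm θ (fun n : N => χ n)
    rw [h, map_zero] at h5
    exact h5.symm⟩)
  have hβχ' : β * χ₀ = χ := hβχ
  -- `β` is inflated
  obtain ⟨β', hβ'⟩ := Cfsg.Agent.Blocks.Deflate.exists_deflation N β hβ (by
    rw [Cfsg.Agent.CharactersDeep.NormalInd.classInner_indFun N (fun _ => 1) _ (isIrr_isClassFunction hβ),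
      classInner_def] at hβ1
    intro h
    apply hβ1
    have h6 : ∑ n : N, (1 : ℂ) * conj (β n) = conj (∑ n : N, β n) := by
      rw [map_sum]
      exact Finset.sum_congr rfl fun n _ => one_mul _
    rw [h6, h, map_zero, mul_zero])
  have hβN : ∀ n : N, β n = β 1 := by
    intro n
    rw [hβ']
    show (β' : G ⧸ N → ℂ) ((n : G) : G ⧸ N) = (β' : G ⧸ N → ℂ) ((1 : G) : G ⧸ N)
    rw [(QuotientGroup.eq_one_iff (n : G)).2 n.2]
    rfl
  have hfβ : fsi β = fsi (β' : G ⧸ N → ℂ) := by
    rw [hβ']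
    exact fsi_comp (QuotientGroup.mk' N) (QuotientGroup.mk'_surjective N) _
  rcases hG _ β'.2 with h1 | h1
  · left
    rw [← hfβ] at h1
    have h2 := fsi_mul hβ hχ₀ (by rw [hβχ']; exact hχ) (real_of_fsi_ne_zero hβ (by rw [h1]; exact one_ne_zero)) hr
    rw [h1, hf, one_mul, one_mul, hβχ'] at h2
    exact h2
  · right
    refine ⟨h1.1, ?_⟩
    rw [← hfβ] at h1
    rcases fsi_spec hχ with h2 | h2
    · exact h2.1
    · exfalso
      -- `conj β = β`
      have h3 : IsIrrCharacter G (fun g => conj (β g)) := isIrr_conj hβ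
      have h4 : (fun g => conj (β g)) = β := by
        refine key.injOn (hmem _ h3 (fun n => by
          show conj (β n) = conj (β 1)
          rw [hβN])) (hmem _ hβ hβN) ?_
        funext g
        show conj (β g) * χ₀ g = β g * χ₀ g
        have h5 : β g * χ₀ g = χ g := congrFun hβχ' g
        have h6 : conj (β g * χ₀ g) = β g * χ₀ g := by rw [h5, Complex.conj_eq_iff_im.2 (h2.2 g)]
        rw [map_mul, Complex.conj_eq_iff_im.2 (hr g)] at h6
        exact h6
      exact fsi_ne_zero_of_real hβ (fun g => Complex.conj_eq_iff_im.1 (congrFun h4 g)) h1.2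

end Cfsg.Agent.H893.FR
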