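import Cfsg.Agent.H893.FR.LongTwo
import Cfsg.Agent.H893.FR.ExtReal
import Cfsg.Agent.H893.FR.Prod
import Cfsg.Agent.H955.FSClifford

/-!
# Long root parabolic of `³D₄(q)`, `q` even, characters non-trivial on the centre: no indicator is `-1`
(team SR, S4970, P3; helper893)
-/

set_option autoImplicit false
set_option linter.unusedSectionVars false

universe u v

namespace Cfsg.Agent.H893.FR

open Cfsg Cfsg.Agent.H955.FS
open Cfsg.Agent.Characters.Core
open Cfsg.Agent.StdRank2.Hex Cfsg.Agent.StdRank2.Hex.HexTwo Cfsg.Agent.SplitTwo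
open scoped ComplexConjugate

/-- the central sign character -/
theorem central_sign {G : Type u} [Group G] [Finite G] (Z : Subgroup G) (hZ : ∀ z ∈ Z, ∀ g, g * z = z * g)
    (hsq : ∀ z ∈ Z, z * z = 1) {χ : G → ℂ} (hχ : IsIrrCharacter G χ) :
    ∃ lam : Z → ℂ, (∀ a b : Z, lam (a * b) = lam a * lam b) ∧ (∀ a, lam a = 1 ∨ lam a = -1) ∧
      ∀ a : Z, χ a = lam a * χ 1 := by
  classical
  have := Fintype.ofFinite G
  have := Fintype.ofFinite Z
  obtain ⟨lam, hmul, hpm, -, hsum⟩ := exists_linear Z ⊥ bot_le (fun a ha => by rw [hsq a ha]; exact one_mem _) hχ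
    (fun z hz => by rw [Subgroup.mem_bot.1 hz])
  refine ⟨lam, hmul, hpm, fun a => ?_⟩
  have hconj : ∀ a, conj (lam a) = lam a := by
    intro a
    rcases hpm a with h | h <;> rw [h] <;> simp
  have h1 := act_lin Z.subtype (fun _ a => a) (fun t a => by
      show (a : G) = t * a * t⁻¹
      rw [hZ a a.2 t, mul_inv_cancel_right]) Z.subtype_injective lam hmul (fun a => by
      rw [hconj]
      rcases hpm a with h | h <;> rw [h] <;> norm_num) (fun _ _ => rfl) hχ (by
      rw [classInner_def]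
      refine mul_ne_zero (inv_ne_zero card_ne_zero_complex) ?_
      rw [finsum_eq_sum_of_fintype] at hsum
      intro h
      apply hsum
      rw [← h]
      refine Finset.sum_congr rfl fun a _ => ?_
      rw [hconj]
      rfl) a 1
  rw [mul_one] at h1
  exact h1

variable {E : Type u} [Field E] {σ : E ≃+* E} {Γ : Type v} [Group Γ] {x : ZMod 12 → E → Γ} (h : HexTwo σ x)
include h

/-- **LONG (ii).** -/
theorem long_two [Finite E] [Finite Γ] {χ : ↥(gen σ x (arc 1 7)) → ℂ} (hχ : IsIrrCharacter _ χ)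
    (hne : ∃ z : ↥(gen σ x (arc 1 7)), (z : Γ) ∈ gen σ x {4} ∧ χ z ≠ χ 1) : fsi χ = 1 ∨ fsi χ = 0 := by
  classical
  have z0 : σ (0 : E) = 0 := map_zero σ
  have := Fintype.ofFinite ↥(gen σ x (arc 1 7))
  have hN := long_normal h
  have := Fintype.ofFinite ↥((gen σ x (arc 2 5)).subgroupOf (gen σ x (arc 1 7)))
  -- the centre
  have hZX : gen σ x ({4} : Set (ZMod 12)) ≤ gen σ x (arc 1 7) := by
    refine gen_mono ?_
    intro l hl
    rw [Set.mem_singleton_iff] at hl
    subst hl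
    rw [mem_arc]; decide
  have hcen : ∀ z ∈ (gen σ x {4}).subgroupOf (gen σ x (arc 1 7)), ∀ g, g * z = z * g := by
    intro z hz g
    obtain ⟨t, ht, e⟩ := h.mem_gen_singleton.1 (Subgroup.mem_subgroupOf.1 hz)
    apply Subtype.ext
    have e1 : (4 : ZMod 12) - 3 = 1 := by decide
    have h1 := h.comm_gen_long (k := 4) (by decide) ht (g := (g : Γ)) (by rw [e1]; exact g.2)
    show (g : Γ) * z = z * g
    rw [e]
    exact h1.symm
  have hsq : ∀ z ∈ (gen σ x {4}).subgroupOf (gen σ x (arc 1 7)), z * z = 1 := by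
    intro z hz
    obtain ⟨t, ht, e⟩ := h.mem_gen_singleton.1 (Subgroup.mem_subgroupOf.1 hz)
    apply Subtype.ext
    show (z : Γ) * z = 1
    rw [e]
    exact h.x_sq ht
  obtain ⟨lam, hmul, hpm, hlam⟩ := central_sign _ hcen hsq hχ
  obtain ⟨mu, hmu⟩ : ∃ mu : Γ → ℂ, ∀ z : (gen σ x {4}).subgroupOf (gen σ x (arc 1 7)),
      mu ((z : ↥(gen σ x (arc 1 7))) : Γ) = lam z :=
    ⟨fun g => if hg : g ∈ gen σ x {4} then lam ⟨⟨g, hZX hg⟩, Subgroup.mem_subgroupOf.2 hg⟩ else 1, fun z => by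
      simp only
      rw [dif_pos (Subgroup.mem_subgroupOf.1 z.2)]⟩
  have hmu' : ∀ g (hg : g ∈ gen σ x {4}), mu g = lam ⟨⟨g, hZX hg⟩, Subgroup.mem_subgroupOf.2 hg⟩ := fun g hg =>
    hmu ⟨⟨g, hZX hg⟩, Subgroup.mem_subgroupOf.2 hg⟩
  have hH := hei_long h (mu := mu) (fun a ha b hb => by
      rw [hmu' _ (mul_mem ha hb), hmu' a ha, hmu' b hb, ← hmul]
      rfl) (fun a ha => by
      rw [hmu' a ha]
      exact hpm _) (by
      obtain ⟨z, hz, hne⟩ := hne
      obtain ⟨t, ht, e⟩ := h.mem_gen_singleton.1 hz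
      refine ⟨t, ht (by decide), fun h1 => hne ?_⟩
      rw [← e, hmu' _ hz] at h1
      have h2 := hlam ⟨z, Subgroup.mem_subgroupOf.2 hz⟩
      rw [h2]
      have h3 : lam ⟨z, Subgroup.mem_subgroupOf.2 hz⟩ = 1 := h1
      rw [h3, one_mul])
  have hlamZ : ∀ z ∈ (gen σ x {4}).subgroupOf (gen σ x (arc 1 7)), lamA σ x mu (z : Γ) * χ 1 = χ z := by
    intro z hz
    obtain ⟨t, ht, e⟩ := h.mem_gen_singleton.1 (Subgroup.mem_subgroupOf.1 hz)
    have e1 : (z : Γ) = uu x 0 0 0 t 0 0 := by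
      rw [e, uu, q]
      simp [h.x_zero]
    rw [hlam ⟨z, hz⟩, e1, lamA_uu h mu z0 (ht (by decide)), ← e, hmu ⟨z, hz⟩]
  obtain ⟨θ, η, hθ, hθf, hη, hηr, hηN, -, hinv, hover⟩ := hH.exists_theta
  obtain ⟨χ₀, hχ₀, hr, hext⟩ := ext_real _ _ hH.NP (by
      have h1 : IsPGroup 2 ↥(gen σ x (arc 2 5)) := h.isPGroup_U.to_le (gen_mono (arc_succ_sub (k := 1) (n := 5) (by norm_num)))
      exact h1.of_equiv (Subgroup.subgroupOfEquivOfLe (gen_mono ((arc_succ_sub (k := 1) (n := 5) (by norm_num)).trans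
        (arc_mono (by norm_num))))).symm) (long_index h) (by
      intro p hp
      exact Subgroup.mem_subgroupOf.2 (long_sq h (Subgroup.mem_subgroupOf.1 hp))) hθ hinv hη hηr hηN
  have hf : fsi χ₀ = 1 := by
    have h1 := Cfsg.Agent.H705.Indicator.indicator_restrict
      (f := ((gen σ x (arc 2 5)).subgroupOf (gen σ x (arc 1 7))).subtype) hχ₀ hr hθ (by
        rw [← fsi_eq_sum]
        exact hθf) (by
        have h2 : (fun n : ↥((gen σ x (arc 2 5)).subgroupOf (gen σ x (arc 1 7))) => χ₀ n) = θ := funext hext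
        show classInner (fun n : ↥((gen σ x (arc 2 5)).subgroupOf (gen σ x (arc 1 7))) => χ₀ n) θ = 1
        rw [h2]
        exact classInner_irr_self hθ)
    rw [fsi_eq_sum]
    exact h1
  rcases ext_good _ hθ hχ₀ hr hf hext (long_quo h) hχ (hover _ _ (isIrr_apply_one_ne_zero hχ) (fun z hz => by
    show χ z = lamA σ x mu (z : Γ) * χ 1
    exact (hlamZ z hz).symm)) with h1 | h1
  · exact Or.inl h1
  · exact Or.inr h1.2

end Cfsg.Agent.H893.FR
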